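import Mathlib.RingTheory.Ideal.GoingDown
import Mathlib.RingTheory.Flat.Basic
import Mathlib.RingTheory.RingHom.Flat
import Mathlib.RingTheory.MvPolynomial.Basic
import Mathlib.RingTheory.LocalRing.MaximalIdeal.Basic
import Mathlib.Algebra.MvPolynomial.Eval
import Mathlib.RingTheory.Polynomial.Basic

/-!
# Points of residue characteristic `p` outside the coordinate hyperplanes
-/

set_option autoImplicit false
universe u

open IsLocalRing MvPolynomial

namespace Groth.Agent.Pi1.H415.CharPt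

/-- For a local ring `R`, flat over `A[X_σ]`, with residue characteristic `p`: there is a prime containing `p`
but none of the coordinates. -/
theorem exists_prime {A R : Type*} {σ : Type*} [CommRing A] [CommRing R] [IsLocalRing R]
    (α : MvPolynomial σ A →+* R) (hα : α.Flat) (c : A) (hc : α (C c) ∈ maximalIdeal R) :
    ∃ x : PrimeSpectrum R, α (C c) ∈ x.asIdeal ∧ ∀ j, α (X j) ∉ x.asIdeal := by
  algebraize [α]
  let mP : Ideal (MvPolynomial σ A) := (maximalIdeal R).comap α
  have hmP : mP.IsPrime := Ideal.comap_isPrime _ _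
  let 𝔭 : Ideal A := mP.comap C
  have h𝔭 : 𝔭.IsPrime := Ideal.comap_isPrime _ _
  let μ : MvPolynomial σ A →+* MvPolynomial σ (A ⧸ 𝔭) := MvPolynomial.map (Ideal.Quotient.mk 𝔭)
  let q : Ideal (MvPolynomial σ A) := RingHom.ker μ
  have hq : q.IsPrime := RingHom.ker_isPrime μ
  have hle : q ≤ mP := by
    have h1 : q = Ideal.map C 𝔭 := by
      change RingHom.ker (MvPolynomial.map (Ideal.Quotient.mk 𝔭)) = _
      rw [MvPolynomial.ker_map, Ideal.mk_ker]
    rw [h1, Ideal.map_le_iff_le_comap]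
  have hlies : (maximalIdeal R).LiesOver mP := ⟨rfl⟩
  obtain ⟨Q, -, hQ, hQq⟩ := Ideal.exists_ideal_le_liesOver_of_le (p := q) (q := mP) (maximalIdeal R) hle
  have hmem : ∀ z, α z ∈ Q ↔ μ z = 0 := by
    intro z
    have h1 : q = Q.comap α := hQq.over
    have h2 : z ∈ q ↔ z ∈ Q.comap α := by rw [h1]
    exact h2.symm
  refine ⟨⟨Q, hQ⟩, ?_, fun j => ?_⟩
  · change α (C c) ∈ Q
    rw [hmem]
    have h1 : c ∈ 𝔭 := hc
    simp only [μ, map_C, Ideal.Quotient.eq_zero_iff_mem.2 h1, C_0]
  · change α (X j) ∉ Q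
    rw [hmem]
    simp only [μ, map_X]
    exact X_ne_zero j

end Groth.Agent.Pi1.H415.CharPt
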