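import Groth.Agent.Pi1.H415.SplitBC
import Groth.Agent.Pi1.H420.BijCrit

/-!
# Removing the radicial part of a splitting cover

If `V → U` is split by `Kn → Km → U`, `Km`, `Kn` connected, `q : Kn → Km` finite flat surjective, and
over one geometric point of `Km` there is only one point of `Kn`, then `V` is split by `Km`.
-/

set_option autoImplicit false

universe u

open CategoryTheory CategoryTheory.Limits AlgebraicGeometry

namespace Groth.Agent.Pi1.H415.Radicial

open SplitBC

theorem finrank_eq_one (Ω : Type u) [Field Ω] [IsAlgClosed Ω] {Z : Scheme.{u}}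
    (ζ : Z ⟶ Spec (CommRingCat.of Ω)) [IsFinite ζ] [Etale ζ]
    (h : ∃! σ : Spec (CommRingCat.of Ω) ⟶ Z, σ ≫ ζ = 𝟙 _) (y : Spec (CommRingCat.of Ω)) :
    ζ.finrank y = 1 := by
  have hZ : IsAffine Z := isAffine_of_isAffineHom ζ
  obtain ⟨ψ, hψ⟩ := Spec.map_surjective (Z.isoSpec.inv ≫ ζ)
  have hF : IsFinite (Spec.map ψ) := by rw [hψ]; infer_instance
  have hE : Etale (Spec.map ψ) := by rw [hψ]; infer_instance
  rw [← Scheme.Hom.finrank_comp_left_of_isIso Z.isoSpec.inv ζ, ← hψ]
  have hfin : ψ.hom.Finite := (IsFinite.SpecMap_iff ψ).mp hF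
  have hflat : ψ.hom.Flat := Flat.SpecMap_iff.mp inferInstance
  rw [Scheme.Hom.finrank_SpecMap_eq_finrank hfin hflat]
  have het : ψ.hom.Etale := by
    rwa [HasRingHomProperty.Spec_iff (P := @Etale)] at hE
  let E : Type u := Γ(Z, ⊤)
  let _ : Algebra Ω E := ψ.hom.toAlgebra
  have hψa : algebraMap Ω E = ψ.hom := rfl
  have : Module.Finite Ω E := hfin
  have : Algebra.Etale Ω E := het
  have h1 : Module.finrank Ω E = 1 := by
    apply Groth.Agent.Pi1.H420.BijCrit.finrank_eq_one_of_unique_point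
    obtain ⟨σ, hσ, hσu⟩ := h
    obtain ⟨g, hg⟩ := Spec.map_surjective (σ ≫ Z.isoSpec.hom)
    have hψg : ψ ≫ g = 𝟙 _ := by
      apply Spec.map_injective
      rw [Spec.map_comp, hg, hψ, Category.assoc, Iso.hom_inv_id_assoc, hσ, Spec.map_id]
    let f : E →ₐ[Ω] Ω := { g.hom with commutes' := fun c => congrArg (fun k => k.hom c) hψg }
    refine ⟨f, trivial, fun f' _ => ?_⟩
    have h2 : ∀ f' : E →ₐ[Ω] Ω, (Spec.map (CommRingCat.ofHom f'.toRingHom) ≫ Z.isoSpec.inv) ≫ ζ = 𝟙 _ := by
      intro f'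
      rw [Category.assoc, ← hψ, ← Spec.map_comp, ← Spec.map_id]
      congr 1
      ext c
      exact f'.commutes c
    have h3 := (hσu _ (h2 f')).trans (hσu _ (h2 f)).symm
    rw [cancel_mono] at h3
    have h4 := Spec.map_injective h3
    ext c
    exact congrArg (fun k => k.hom c) h4
  have h5 : ψ.hom.finrank y = Module.rankAtStalk (R := Ω) E y := by
    rw [← hψa, RingHom.finrank_algebraMap]
  rw [h5, Module.rankAtStalk_eq_finrank_of_free, h1]
  rfl

/-- Lifting of geometric points along finite surjective morphisms. -/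
theorem exists_lift (Ω : Type u) [Field Ω] [IsAlgClosed Ω] {Z K : Scheme.{u}} (q : Z ⟶ K) [IsFinite q]
    [Surjective q] (y : Spec (CommRingCat.of Ω) ⟶ K) : ∃ a : Spec (CommRingCat.of Ω) ⟶ Z, a ≫ q = y := by
  have hne : Nonempty ↥(pullback q y) := by
    obtain ⟨z, -⟩ := (pullback.snd q y).surjective (IsLocalRing.closedPoint Ω)
    exact ⟨z⟩
  have hZ : IsAffine (pullback q y) := isAffine_of_isAffineHom (pullback.snd q y)
  obtain ⟨ψ, hψ⟩ := Spec.map_surjective ((pullback q y).isoSpec.inv ≫ pullback.snd q y)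
  have hF : IsFinite (Spec.map ψ) := by rw [hψ]; infer_instance
  have hfin : ψ.hom.Finite := (IsFinite.SpecMap_iff ψ).mp hF
  let E : Type u := Γ(pullback q y, ⊤)
  let _ : Algebra Ω E := ψ.hom.toAlgebra
  have : Module.Finite Ω E := hfin
  have hnt : Nontrivial E := by
    obtain ⟨z⟩ := hne
    exact ((pullback q y).isoSpec.hom z).nontrivial
  obtain ⟨M, hM⟩ := Ideal.exists_maximal E
  let _ : Field (E ⧸ M) := Ideal.Quotient.field M
  have hbij : Function.Bijective (algebraMap Ω (E ⧸ M)) :=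
    IsAlgClosed.algebraMap_bijective_of_isIntegral
  let e : Ω ≃+* (E ⧸ M) := RingEquiv.ofBijective (algebraMap Ω (E ⧸ M)) hbij
  let g : E →+* Ω := e.symm.toRingHom.comp (Ideal.Quotient.mk M)
  have hg : g.comp (algebraMap Ω E) = RingHom.id Ω := by
    ext c
    exact e.symm_apply_apply c
  refine ⟨Spec.map (CommRingCat.ofHom g) ≫ (pullback q y).isoSpec.inv ≫ pullback.fst q y, ?_⟩
  rw [Category.assoc, Category.assoc, pullback.condition, ← Category.assoc (pullback q y).isoSpec.inv, ← hψ,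
    ← Spec.map_comp_assoc]
  have : ψ ≫ CommRingCat.ofHom g = 𝟙 _ := by
    ext c
    exact congrArg (fun k => k c) hg
  rw [this, Spec.map_id, Category.id_comp]

theorem isIso_of_unique_point {Z K : Scheme.{u}} (ζ : Z ⟶ K) [IsFinite ζ] [Etale ζ] [PreconnectedSpace K]
    (Ω : Type u) [Field Ω] [IsAlgClosed Ω] (y : Spec (CommRingCat.of Ω) ⟶ K)
    (h : ∃! σ : Spec (CommRingCat.of Ω) ⟶ Z, σ ≫ ζ = y) : IsIso ζ := by
  rw [Scheme.Hom.isIso_iff_finrank_eq]
  let pt : Spec (CommRingCat.of Ω) := IsLocalRing.closedPoint Ω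
  have h1 : ζ.finrank (y pt) = 1 := by
    rw [← Scheme.Hom.finrank_pullback_snd]
    apply finrank_eq_one
    obtain ⟨σ, hσ, hσu⟩ := h
    refine ⟨pullback.lift σ (𝟙 _) (by rw [hσ, Category.id_comp]), pullback.lift_snd _ _ _, fun τ hτ => ?_⟩
    apply pullback.hom_ext
    · rw [pullback.lift_fst]
      apply hσu
      rw [Category.assoc, pullback.condition, ← Category.assoc]
      rw [hτ, Category.id_comp]
    · rw [pullback.lift_snd]; exact hτ
  ext x
  exact ((Scheme.Hom.isLocallyConstant_finrank ζ).apply_eq_of_preconnectedSpace x (y pt)).trans h1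

/-- A morphism to a scheme etale over the base is flat if the composite is. -/
theorem flat_of_comp {X Y Z : Scheme.{u}} (f : X ⟶ Y) (g : Y ⟶ Z) [Etale g] [Flat (f ≫ g)] : Flat f := by
  have : MorphismProperty.HasOfPostcompProperty @Flat @Etale := by
    rw [MorphismProperty.hasOfPostcompProperty_iff_le_diagonal]
    intro X Y f hf
    exact inferInstanceAs <| Flat (pullback.diagonal f)
  exact MorphismProperty.of_postcomp (W := @Flat) (W' := @Etale) f g ‹_› ‹_›

theorem locallyOfFinitePresentation_of_comp {X Y Z : Scheme.{u}} (f : X ⟶ Y) (g : Y ⟶ Z) [Etale g]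
    [LocallyOfFinitePresentation (f ≫ g)] : LocallyOfFinitePresentation f := by
  have hm : MorphismProperty.IsMultiplicative @LocallyOfFinitePresentation :=
    { id_mem := fun X => (inferInstance : LocallyOfFinitePresentation (𝟙 X)) }
  have : MorphismProperty.HasOfPostcompProperty @LocallyOfFinitePresentation @Etale := by
    rw [MorphismProperty.hasOfPostcompProperty_iff_le_diagonal]
    intro X Y f hf
    exact inferInstanceAs <| LocallyOfFinitePresentation (pullback.diagonal f)
  exact MorphismProperty.of_postcomp (W := @LocallyOfFinitePresentation) (W' := @Etale) f g ‹_› ‹_›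

/-- **Removing a radicial part.** -/
theorem ptSplit_of_radicial {U V Km Kn : Scheme.{u}} (v : V ⟶ U) [IsFinite v] [Etale v] (k : Km ⟶ U)
    (q : Kn ⟶ Km) [IsFinite q] [Flat q] [LocallyOfFinitePresentation q] [Surjective q]
    [ConnectedSpace Km] [ConnectedSpace Kn] (Ω : Type u) [Field Ω] [IsAlgClosed Ω]
    (y : Spec (CommRingCat.of Ω) ⟶ Km)
    (hrad : ∀ a b : Spec (CommRingCat.of Ω) ⟶ Kn, a ≫ q = y → b ≫ q = y → a = b)
    (hs : PtSplit v (q ≫ k)) : PtSplit v k := by
  intro Ω₁ _ t κ h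
  let w : pullback v k ⟶ Km := pullback.snd v k
  let z : Spec (CommRingCat.of Ω₁) ⟶ pullback v k := pullback.lift t κ h
  obtain ⟨ξ, hξ⟩ := (pullback.snd q κ).surjective (IsLocalRing.closedPoint Ω₁)
  let Ω₂ := (pullback q κ).residueField ξ
  let a : Spec (CommRingCat.of Ω₂) ⟶ Kn := (pullback q κ).fromSpecResidueField ξ ≫ pullback.fst q κ
  let b : Spec (CommRingCat.of Ω₂) ⟶ Spec (CommRingCat.of Ω₁) :=
    (pullback q κ).fromSpecResidueField ξ ≫ pullback.snd q κ
  have hab : a ≫ q = b ≫ κ := by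
    simp only [a, b, Category.assoc, pullback.condition]
  obtain ⟨s, hs1, hs2⟩ := hs Ω₂ (b ≫ t) a (by
    rw [Category.assoc, h, ← Category.assoc, ← hab, Category.assoc])
  let s' : Kn ⟶ pullback v k := pullback.lift s q hs1
  have hs'w : s' ≫ w = q := pullback.lift_snd _ _ _
  have hs'z : a ≫ s' = b ≫ z := by
    apply pullback.hom_ext
    · simp only [s', z, Category.assoc, pullback.lift_fst]; exact hs2
    · simp only [s', z, Category.assoc, pullback.lift_snd]; exact hab
  have i1 : IsFinite (s' ≫ w) := by rw [hs'w]; infer_instance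
  have i2 : Flat (s' ≫ w) := by rw [hs'w]; infer_instance
  have i3 : LocallyOfFinitePresentation (s' ≫ w) := by rw [hs'w]; infer_instance
  have i4 : IsFinite s' := IsFinite.of_comp s' w
  have i5 : Flat s' := flat_of_comp s' w
  have i6 : LocallyOfFinitePresentation s' := locallyOfFinitePresentation_of_comp s' w
  have hcl : IsClopen (Set.range s') := ⟨s'.isClosedMap.isClosed_range, s'.isOpenMap.isOpen_range⟩
  let Z : (pullback v k).Opens := ⟨Set.range s', hcl.isOpen⟩
  have hrange : Set.range Z.ι = Set.range s' := by simp [Z]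
  have i7 : IsClosedImmersion Z.ι := by
    apply IsClosedImmersion.of_isPreimmersion
    rw [hrange]
    exact hcl.isClosed
  let s'' : Kn ⟶ (Z : Scheme.{u}) := IsOpenImmersion.lift Z.ι s' hrange.ge
  have hs'' : s'' ≫ Z.ι = s' := IsOpenImmersion.lift_fac _ _ _
  have i8 : IsFinite (s'' ≫ Z.ι) := by rw [hs'']; infer_instance
  have i9 : IsFinite s'' := IsFinite.of_comp s'' Z.ι
  have i10 : Surjective s'' := by
    refine ⟨fun p => ?_⟩
    have : Z.ι p ∈ Set.range s' := by rw [← hrange]; exact ⟨p, rfl⟩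
    obtain ⟨c, hc⟩ := this
    refine ⟨c, Z.ι.isOpenEmbedding.injective ?_⟩
    rw [← Scheme.Hom.comp_apply, hs'', hc]
  let ζ : (Z : Scheme.{u}) ⟶ Km := Z.ι ≫ w
  have hq : s'' ≫ ζ = q := by rw [← Category.assoc, hs'', hs'w]
  have hζ : IsIso ζ := by
    apply isIso_of_unique_point ζ Ω y
    obtain ⟨a₀, ha₀⟩ := exists_lift Ω q y
    refine ⟨a₀ ≫ s'', ?_, ?_⟩
    · change (a₀ ≫ s'') ≫ ζ = y
      rw [Category.assoc, hq, ha₀]
    · intro σ hσ
      obtain ⟨a₁, ha₁⟩ := exists_lift Ω s'' σ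
      have h2 : a₁ = a₀ := hrad _ _ (by rw [← hq, ← Category.assoc, ha₁]; exact hσ) ha₀
      rw [← ha₁, h2]
  have hz : Set.range z ⊆ Set.range Z.ι := by
    rw [hrange]
    rintro _ ⟨p, rfl⟩
    let p' : Spec (CommRingCat.of Ω₂) := IsLocalRing.closedPoint Ω₂
    have hp : b p' = p := Subsingleton.elim _ _
    refine ⟨a p', ?_⟩
    rw [← hp, ← Scheme.Hom.comp_apply, ← Scheme.Hom.comp_apply, hs'z]
  let z' : Spec (CommRingCat.of Ω₁) ⟶ (Z : Scheme.{u}) := IsOpenImmersion.lift Z.ι z hz
  have hz' : z' ≫ Z.ι = z := IsOpenImmersion.lift_fac _ _ _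
  have hz'ζ : z' ≫ ζ = κ := by
    rw [← Category.assoc, hz']
    exact pullback.lift_snd _ _ _
  refine ⟨inv ζ ≫ Z.ι ≫ pullback.fst v k, ?_, ?_⟩
  · rw [Category.assoc, Category.assoc, pullback.condition, IsIso.inv_comp_eq]
    simp only [ζ, w, Category.assoc]
  · rw [← hz'ζ, Category.assoc, IsIso.hom_inv_id_assoc, ← Category.assoc, hz']
    exact pullback.lift_fst _ _ _

end Groth.Agent.Pi1.H415.Radicial
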