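import Groth.Agent.Pi1.H415.KumTower
import Groth.Agent.Pi1.H415.Radicial
import Groth.Agent.Pi1.H415.SplitBC
import Mathlib.Data.Nat.Factorization.Basic
import Mathlib.FieldTheory.IsAlgClosed.AlgebraicClosure

/-!
# Removing the residue characteristic from the exponents of a Kummer cover
-/

set_option autoImplicit false
universe u

open CategoryTheory CategoryTheory.Limits AlgebraicGeometry IsLocalRing

namespace Groth.Agent.Pi1.H415.Expo

open Groth.Agent.Pi1.H390 Groth.Agent.Pi1.H415.KumBC Groth.Agent.Pi1.H415.SplitBC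
  Groth.Agent.Pi1.H415.KumTower

/-- A geometric point of the Kummer scheme over a given point of the base. -/
theorem exists_point {R : Type u} [CommRing R] {ι : Type} (a : ι → R) (n : ι → ℕ) (hn : ∀ i, 1 ≤ n i)
    (x : PrimeSpectrum R) :
    ∃ (Ω : Type u) (_ : Field Ω) (_ : IsAlgClosed Ω) (φ : SGA1t.kummer R a n →+* Ω),
      RingHom.ker (φ.comp (algebraMap R _)) = x.asIdeal := by
  let Ω := AlgebraicClosure (ResidueField (Localization.AtPrime x.asIdeal))
  let _ : Algebra R Ω := ((algebraMap (ResidueField (Localization.AtPrime x.asIdeal)) Ω).comp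
    (algebraMap R (ResidueField (Localization.AtPrime x.asIdeal)))).toAlgebra
  have h : ∀ i, ∃ z : Ω, z ^ n i = algebraMap R Ω (a i) := fun i =>
    IsAlgClosed.exists_pow_nat_eq _ (by have := hn i; omega)
  choose z hz using h
  let φ := KumBasic.lift a n z hz
  refine ⟨Ω, inferInstance, inferInstance, φ.toRingHom, ?_⟩
  ext c
  rw [RingHom.mem_ker]
  change φ (algebraMap R _ c) = 0 ↔ _
  rw [AlgHom.commutes]
  change algebraMap (ResidueField (Localization.AtPrime x.asIdeal)) Ω
    (algebraMap R (ResidueField (Localization.AtPrime x.asIdeal)) c) = 0 ↔ _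
  rw [map_eq_zero_iff _ (algebraMap (ResidueField (Localization.AtPrime x.asIdeal)) Ω).injective,
    IsScalarTower.algebraMap_apply R (Localization.AtPrime x.asIdeal), ResidueField.algebraMap_eq,
    residue_eq_zero_iff]
  exact IsLocalization.AtPrime.to_map_mem_maximal_iff _ x.asIdeal c

/-- One step: the exponents `m_i s_i` with `s_i` powers of the characteristic `p` of a point of `U` may be
replaced by `m_i`. -/
theorem step {R : Type u} [CommRing R] {ι : Type} [Finite ι] (a : ι → R)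
    (U : (Spec (CommRingCat.of R)).Opens)
    (hconn : ∀ n : ι → ℕ, (∀ i, 1 ≤ n i) → ConnectedSpace ↥(↑(str R a n ⁻¹ᵁ U) : Scheme.{u}))
    (p : ℕ) [Fact p.Prime] (x : PrimeSpectrum R) (hx : (x : ↥(Spec (CommRingCat.of R))) ∈ U)
    (hpx : (p : R) ∈ x.asIdeal)
    {V : Scheme.{u}} (v : V ⟶ U) [IsFinite v] [Etale v] (m s : ι → ℕ) (hm : ∀ i, 1 ≤ m i)
    (hs : ∀ i, ∃ k, s i = p ^ k) (h : PtSplit v (str R a (fun i => m i * s i) ∣_ U)) :
    PtSplit v (str R a m ∣_ U) := by
  have hp : p.Prime := Fact.out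
  have hs1 : ∀ i, 1 ≤ s i := fun i => by
    obtain ⟨k, hk⟩ := hs i
    rw [hk]
    exact Nat.one_le_pow _ _ hp.pos
  have := isFinite_q a m s hs1
  have := flat_q a m s hs1
  have := lfp_q a m s
  have := surjective_q a m s hs1
  obtain ⟨Ω, _, _, φ, hφ⟩ := exists_point a m hm x
  have hchar : CharP Ω p := by
    have h0 : (p : Ω) = 0 := by
      have h1 : (φ.comp (algebraMap R _)) (p : R) = 0 := by
        rw [← RingHom.mem_ker, hφ]; exact hpx
      simpa using h1
    exact (CharP.charP_iff_prime_eq_zero hp).2 h0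
  let y₀ : Spec (CommRingCat.of Ω) ⟶ Spec (CommRingCat.of (SGA1t.kummer R a m)) :=
    Spec.map (CommRingCat.ofHom φ)
  have hy₀ : Set.range y₀ ⊆ Set.range (str R a m ⁻¹ᵁ U).ι := by
    rw [Scheme.Opens.range_ι]
    rintro _ ⟨t, rfl⟩
    have h1 : (str R a m) (y₀ t) = x := by
      have h2 : y₀ ≫ str R a m = Spec.map (CommRingCat.ofHom (φ.comp (algebraMap R _))) := by
        rw [CommRingCat.ofHom_comp, Spec.map_comp]
      rw [← Scheme.Hom.comp_apply, h2]
      apply PrimeSpectrum.ext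
      rw [← hφ]
      have ht : t.asIdeal = ⊥ := by
        rcases Ideal.eq_bot_or_top t.asIdeal with h | h
        · exact h
        · exact absurd h t.2.ne_top
      change t.asIdeal.comap _ = _
      rw [ht]
      rfl
    change (str R a m) (y₀ t) ∈ U
    rw [h1]
    exact hx
  let y : Spec (CommRingCat.of Ω) ⟶ ↑(str R a m ⁻¹ᵁ U) := IsOpenImmersion.lift _ y₀ hy₀
  have hc1 : ConnectedSpace ↥(↑(str R a m ⁻¹ᵁ U) : Scheme.{u}) := hconn m hm
  have hc2 : ConnectedSpace ↥(↑(q a m s ⁻¹ᵁ (str R a m ⁻¹ᵁ U)) : Scheme.{u}) := by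
    have h1 : (q a m s ⁻¹ᵁ (str R a m ⁻¹ᵁ U)) = str R a (fun i => m i * s i) ⁻¹ᵁ U := by
      rw [← q_str]; rfl
    rw [h1]
    exact hconn _ (fun i => Nat.mul_pos (hm i) (hs1 i))
  have hq1 : IsFinite (q a m s ∣_ (str R a m ⁻¹ᵁ U)) :=
    MorphismProperty.of_isPullback (isPullback_morphismRestrict (q a m s) _).flip inferInstance
  have hq2 : Flat (q a m s ∣_ (str R a m ⁻¹ᵁ U)) :=
    MorphismProperty.of_isPullback (isPullback_morphismRestrict (q a m s) _).flip inferInstance
  have hq3 : LocallyOfFinitePresentation (q a m s ∣_ (str R a m ⁻¹ᵁ U)) :=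
    MorphismProperty.of_isPullback (isPullback_morphismRestrict (q a m s) _).flip inferInstance
  have hq4 : Surjective (q a m s ∣_ (str R a m ⁻¹ᵁ U)) :=
    MorphismProperty.of_isPullback (isPullback_morphismRestrict (q a m s) _).flip inferInstance
  refine Radicial.ptSplit_of_radicial v (str R a m ∣_ U) (q a m s ∣_ (str R a m ⁻¹ᵁ U)) Ω y ?_ ?_
  · intro b c hb hc
    have : ExpChar Ω p := ExpChar.prime hp
    have h1 : b ≫ (q a m s ⁻¹ᵁ (str R a m ⁻¹ᵁ U)).ι = c ≫ (q a m s ⁻¹ᵁ (str R a m ⁻¹ᵁ U)).ι := by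
      apply radicial_q a m s Ω p hs
      rw [Category.assoc, Category.assoc, ← morphismRestrict_ι, ← Category.assoc, ← Category.assoc, hb, hc]
    exact (cancel_mono _).1 h1
  · rw [← morphismRestrict_comp]
    have h1 : ∀ w : Spec (CommRingCat.of (SGA1t.kummer R a (fun i => m i * s i))) ⟶ Spec (CommRingCat.of R),
        w = str R a (fun i => m i * s i) → PtSplit v (w ∣_ U) := by
      rintro _ rfl
      exact h
    exact h1 _ (q_str a m s)

/-- The exponents of a split Kummer cover can be taken prime to the residue characteristic. -/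
theorem main {R : Type u} [CommRing R] [IsLocalRing R] {ι : Type} [Finite ι] (a : ι → R)
    (U : (Spec (CommRingCat.of R)).Opens)
    (hU : ∀ p : ℕ, p.Prime → (p : R) ∈ maximalIdeal R →
      ∃ x : PrimeSpectrum R, (x : ↥(Spec (CommRingCat.of R))) ∈ U ∧ (p : R) ∈ x.asIdeal)
    (hconn : ∀ n : ι → ℕ, (∀ i, 1 ≤ n i) → ConnectedSpace ↥(↑(str R a n ⁻¹ᵁ U) : Scheme.{u}))
    {V : Scheme.{u}} (v : V ⟶ U) [IsFinite v] [Etale v] (n : ι → ℕ) (hn : ∀ i, 1 ≤ n i)
    (h : PtSplit v (str R a n ∣_ U)) :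
    ∃ m : ι → ℕ, (∀ i, 1 ≤ m i) ∧ (∀ i, IsUnit ((m i : ℕ) : R)) ∧ PtSplit v (str R a m ∣_ U) := by
  have hunit : ∀ k : ℕ, ((k : ℕ) : ResidueField R) ≠ 0 → IsUnit ((k : ℕ) : R) := by
    intro k hk
    rw [← residue_ne_zero_iff_isUnit]
    simpa using hk
  obtain ⟨p, hp⟩ := CharP.exists (ResidueField R)
  rcases CharP.char_is_prime_or_zero (ResidueField R) p with hp' | rfl
  · have : Fact p.Prime := ⟨hp'⟩
    have hpm : (p : R) ∈ maximalIdeal R := by
      rw [← residue_eq_zero_iff]
      simp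
    obtain ⟨x, hx, hpx⟩ := hU p hp' hpm
    refine ⟨fun i => ordCompl[p] (n i), fun i => Nat.ordCompl_pos p (by have := hn i; omega), fun i => ?_, ?_⟩
    · apply hunit
      intro h0
      rw [CharP.cast_eq_zero_iff (ResidueField R) p] at h0
      exact Nat.not_dvd_ordCompl hp' (by have := hn i; omega) h0
    · refine step a U hconn p x hx hpx v _ (fun i => ordProj[p] (n i))
        (fun i => Nat.ordCompl_pos p (by have := hn i; omega)) (fun i => ⟨_, rfl⟩) ?_
      have h1 : (fun i => ordCompl[p] (n i) * ordProj[p] (n i)) = n := by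
        funext i
        rw [mul_comm]
        exact Nat.ordProj_mul_ordCompl_eq_self (n i) p
      have h2 : ∀ k : ι → ℕ, k = n → PtSplit v (str R a k ∣_ U) := by
        rintro _ rfl
        exact h
      exact h2 _ h1
  · refine ⟨n, hn, fun i => hunit _ ?_, h⟩
    have : CharZero (ResidueField R) := CharP.charP_to_charZero _
    exact Nat.cast_ne_zero.2 (by have := hn i; omega)

end Groth.Agent.Pi1.H415.Expo
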