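import Groth.Agent.Pi1.H390.KumBasic
import Mathlib.AlgebraicGeometry.Pullbacks
import Mathlib.AlgebraicGeometry.Restrict
import Mathlib.AlgebraicGeometry.Morphisms.Etale
import Mathlib.AlgebraicGeometry.Morphisms.Finite
import Mathlib.Algebra.Category.Ring.Constructions
import Mathlib.FieldTheory.IsAlgClosed.AlgebraicClosure

/-!
# Base change of the Kummer algebra, on spectra and on open parts
-/

set_option autoImplicit false
universe u

open CategoryTheory CategoryTheory.Limits AlgebraicGeometry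

namespace Groth.Agent.Pi1.H415.KumBC

open Groth.Agent.Pi1.H390

/-- The structure map of the Kummer scheme. -/
noncomputable abbrev str (R : Type u) [CommRing R] {ι : Type} (a : ι → R) (n : ι → ℕ) :
    Spec (CommRingCat.of (SGA1t.kummer R a n)) ⟶ Spec (CommRingCat.of R) :=
  Spec.map (CommRingCat.ofHom (algebraMap R (SGA1t.kummer R a n)))

section

variable {R R' : Type u} [CommRing R] [CommRing R'] (g : R →+* R') {ι ι' : Type} (e : ι' ≃ ι)
  (a : ι → R) (n : ι → ℕ) (a' : ι' → R') (n' : ι' → ℕ) (ha : ∀ j, a' j = g (a (e j)))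
  (hn : ∀ j, n' j = n (e j))

/-- The map of Kummer algebras `T_{e j} ↦ T_j`. -/
noncomputable def ringMap : SGA1t.kummer R a n →+* SGA1t.kummer R' a' n' :=
  letI : Algebra R (SGA1t.kummer R' a' n') := ((algebraMap R' (SGA1t.kummer R' a' n')).comp g).toAlgebra
  (KumBasic.lift a n (fun i => KumBasic.T a' n' (e.symm i)) (fun i => by
    have h1 : n i = n' (e.symm i) := by rw [hn, Equiv.apply_symm_apply]
    rw [h1, KumBasic.T_pow, ha, Equiv.apply_symm_apply]; rfl)).toRingHom

lemma ringMap_T (i : ι) : ringMap g e a n a' n' ha hn (KumBasic.T a n i) = KumBasic.T a' n' (e.symm i) := by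
  let _ : Algebra R (SGA1t.kummer R' a' n') := ((algebraMap R' (SGA1t.kummer R' a' n')).comp g).toAlgebra
  exact KumBasic.lift_T a n _ _ i

lemma ringMap_algebraMap (c : R) : ringMap g e a n a' n' ha hn (algebraMap R _ c) = algebraMap R' _ (g c) := by
  let _ : Algebra R (SGA1t.kummer R' a' n') := ((algebraMap R' (SGA1t.kummer R' a' n')).comp g).toAlgebra
  exact (KumBasic.lift a n (fun i => KumBasic.T a' n' (e.symm i)) _).commutes c

theorem isPushout : IsPushout (CommRingCat.ofHom (algebraMap R (SGA1t.kummer R a n))) (CommRingCat.ofHom g)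
    (CommRingCat.ofHom (ringMap g e a n a' n' ha hn))
    (CommRingCat.ofHom (algebraMap R' (SGA1t.kummer R' a' n'))) := by
  have hw : CommRingCat.ofHom (algebraMap R (SGA1t.kummer R a n)) ≫
      CommRingCat.ofHom (ringMap g e a n a' n' ha hn) =
      CommRingCat.ofHom g ≫ CommRingCat.ofHom (algebraMap R' (SGA1t.kummer R' a' n')) := by
    ext c
    exact ringMap_algebraMap g e a n a' n' ha hn c
  refine IsPushout.of_isColimit' ⟨hw⟩ (PushoutCocone.IsColimit.mk _ (fun s =>
    letI : Algebra R' s.pt := s.inr.hom.toAlgebra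
    CommRingCat.ofHom (KumBasic.lift a' n' (S := s.pt) (fun j => s.inl.hom (KumBasic.T a n (e j))) (fun j => by
      have h1 : s.inl.hom (algebraMap R (SGA1t.kummer R a n) (a (e j))) = s.inr.hom (g (a (e j))) :=
        congrArg (fun k => k.hom (a (e j))) s.condition
      rw [← map_pow, hn, KumBasic.T_pow, h1, ← ha]; rfl)).toRingHom) ?_ ?_ ?_)
  · intro s
    let _ : Algebra R' s.pt := s.inr.hom.toAlgebra
    apply CommRingCat.hom_ext
    apply KumBasic.ringHom_ext
    · ext c
      have h1 : s.inl.hom (algebraMap R (SGA1t.kummer R a n) c) = s.inr.hom (g c) :=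
        congrArg (fun k => k.hom c) s.condition
      simp only [CommRingCat.hom_comp, CommRingCat.hom_ofHom, RingHom.comp_apply]
      rw [ringMap_algebraMap, h1]
      exact (KumBasic.lift a' n' (S := s.pt) _ _).commutes (g c)
    · intro i
      simp only [CommRingCat.hom_comp, CommRingCat.hom_ofHom, RingHom.comp_apply]
      rw [ringMap_T]
      refine (KumBasic.lift_T a' n' (S := s.pt) _ _ (e.symm i)).trans ?_
      rw [Equiv.apply_symm_apply]
  · intro s
    let _ : Algebra R' s.pt := s.inr.hom.toAlgebra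
    have ht : ∀ j, s.inl.hom (KumBasic.T a n (e j)) ^ n' j = algebraMap R' s.pt (a' j) := by
      intro j
      have h1 : s.inl.hom (algebraMap R (SGA1t.kummer R a n) (a (e j))) = s.inr.hom (g (a (e j))) :=
        congrArg (fun k => k.hom (a (e j))) s.condition
      rw [← map_pow, hn, KumBasic.T_pow, h1, ← ha]; rfl
    apply CommRingCat.hom_ext
    ext c
    exact (KumBasic.lift a' n' (S := s.pt) (fun j => s.inl.hom (KumBasic.T a n (e j))) ht).commutes c
  · intro s m h1 h2
    let _ : Algebra R' s.pt := s.inr.hom.toAlgebra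
    apply CommRingCat.hom_ext
    apply KumBasic.ringHom_ext
    · ext c
      have h3 : m.hom (algebraMap R' (SGA1t.kummer R' a' n') c) = s.inr.hom c :=
        congrArg (fun k => k.hom c) h2
      simp only [CommRingCat.hom_ofHom, RingHom.comp_apply]
      rw [h3]
      exact ((KumBasic.lift a' n' (S := s.pt) _ _).commutes c).symm
    · intro j
      simp only [CommRingCat.hom_ofHom]
      refine Eq.trans ?_ (KumBasic.lift_T a' n' (S := s.pt) _ _ j).symm
      have h3 : m.hom (ringMap g e a n a' n' ha hn (KumBasic.T a n (e j))) = s.inl.hom (KumBasic.T a n (e j)) :=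
        congrArg (fun k => k.hom (KumBasic.T a n (e j))) h1
      rw [ringMap_T, Equiv.symm_apply_apply] at h3
      exact h3

theorem isPullback : IsPullback (Spec.map (CommRingCat.ofHom (ringMap g e a n a' n' ha hn)))
    (str R' a' n') (str R a n) (Spec.map (CommRingCat.ofHom g)) :=
  isPullback_SpecMap_of_isPushout _ _ _ _ (isPushout g e a n a' n' ha hn)

end

/-- Restriction of a cartesian square to opens. -/
theorem isPullback_restrict {X Y X' Y' : Scheme.{u}} {q : X' ⟶ X} {π' : X' ⟶ Y'} {π : X ⟶ Y} {m : Y' ⟶ Y}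
    (sq : IsPullback q π' π m) (U : Y.Opens) (U' : Y'.Opens) (hle : U' ≤ m ⁻¹ᵁ U) :
    ∃ l : (↑(π' ⁻¹ᵁ U') : Scheme.{u}) ⟶ ↑(π ⁻¹ᵁ U), IsPullback l (π' ∣_ U') (π ∣_ U) (m.resLE U U' hle) := by
  have sq1 : IsPullback ((π' ⁻¹ᵁ U').ι ≫ q) (π' ∣_ U') π (U'.ι ≫ m) :=
    (isPullback_morphismRestrict π' U').flip.paste_horiz sq
  have sq3 : IsPullback (π ⁻¹ᵁ U).ι (π ∣_ U) π U.ι := (isPullback_morphismRestrict π U).flip
  have h1 : m.resLE U U' hle ≫ U.ι = U'.ι ≫ m := Scheme.Hom.resLE_comp_ι m hle
  have h2 : ((π' ⁻¹ᵁ U').ι ≫ q) ≫ π = ((π' ∣_ U') ≫ m.resLE U U' hle) ≫ U.ι := by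
    rw [Category.assoc (π' ∣_ U'), h1]; exact sq1.w
  refine ⟨sq3.lift _ _ h2, ?_⟩
  refine IsPullback.of_right (h₁₂ := (π ⁻¹ᵁ U).ι) (v₁₃ := π) (h₂₂ := U.ι) ?_ (sq3.lift_snd _ _ _) sq3
  rw [sq3.lift_fst, h1]
  exact sq1

section Props

variable {R : Type u} [CommRing R] {ι : Type} [Finite ι] (a : ι → R) (n : ι → ℕ) (hn : ∀ i, 1 ≤ n i)

include hn

theorem isFinite_str : IsFinite (str R a n) := by
  have := KumBasic.finite a n hn
  rw [str, IsFinite.SpecMap_iff, CommRingCat.hom_ofHom, RingHom.finite_algebraMap]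
  infer_instance

theorem isFinite_restrict (U : (Spec (CommRingCat.of R)).Opens) : IsFinite (str R a n ∣_ U) := by
  have := isFinite_str a n hn
  exact MorphismProperty.of_isPullback (isPullback_morphismRestrict (str R a n) U).flip this

omit [Finite ι] in
theorem surjective_str : Surjective (str R a n) := by
  refine ⟨fun p => ?_⟩
  let Ω := AlgebraicClosure (IsLocalRing.ResidueField (Localization.AtPrime p.asIdeal))
  let _ : Algebra R Ω := ((algebraMap (IsLocalRing.ResidueField (Localization.AtPrime p.asIdeal)) Ω).comp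
    (algebraMap R (IsLocalRing.ResidueField (Localization.AtPrime p.asIdeal)))).toAlgebra
  have h : ∀ i, ∃ z : Ω, z ^ n i = algebraMap R Ω (a i) := fun i =>
    IsAlgClosed.exists_pow_nat_eq _ (by have := hn i; omega)
  choose z hz using h
  let φ := KumBasic.lift a n z hz
  refine ⟨⟨RingHom.ker φ.toRingHom, RingHom.ker_isPrime _⟩, ?_⟩
  apply PrimeSpectrum.ext
  change (RingHom.ker φ.toRingHom).comap (algebraMap R _) = p.asIdeal
  ext x
  rw [Ideal.mem_comap, RingHom.mem_ker]
  change φ (algebraMap R _ x) = 0 ↔ _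
  rw [AlgHom.commutes]
  change algebraMap (IsLocalRing.ResidueField (Localization.AtPrime p.asIdeal)) Ω
    (algebraMap R (IsLocalRing.ResidueField (Localization.AtPrime p.asIdeal)) x) = 0 ↔ _
  rw [map_eq_zero_iff _ (algebraMap (IsLocalRing.ResidueField (Localization.AtPrime p.asIdeal)) Ω).injective,
    IsScalarTower.algebraMap_apply R (Localization.AtPrime p.asIdeal), IsLocalRing.ResidueField.algebraMap_eq,
    IsLocalRing.residue_eq_zero_iff]
  exact IsLocalization.AtPrime.to_map_mem_maximal_iff _ p.asIdeal x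

omit [Finite ι] in
theorem surjective_restrict (U : (Spec (CommRingCat.of R)).Opens) : Surjective (str R a n ∣_ U) := by
  have := surjective_str a n hn
  exact MorphismProperty.of_isPullback (isPullback_morphismRestrict (str R a n) U).flip this

/-- The Kummer scheme is etale over opens on which the `a_i` are invertible. -/
theorem etale_restrict (hu : ∀ i, IsUnit ((n i : ℕ) : R)) (U : (Spec (CommRingCat.of R)).Opens)
    (hU : ∀ i, U ≤ PrimeSpectrum.basicOpen (a i)) : Etale (str R a n ∣_ U) := by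
  classical
  have := Fintype.ofFinite ι
  let f : R := ∏ i, a i
  let Rf := Localization.Away f
  let j : Spec (CommRingCat.of Rf) ⟶ Spec (CommRingCat.of R) := Spec.map (CommRingCat.ofHom (algebraMap R Rf))
  have hj : IsOpenImmersion j := IsOpenImmersion.of_isLocalization f
  have hrange : Set.range U.ι ⊆ Set.range j := by
    rw [Scheme.Opens.range_ι]
    have h1 : Set.range j = (PrimeSpectrum.basicOpen f : Set (PrimeSpectrum R)) :=
      PrimeSpectrum.localization_away_comap_range Rf f
    rw [h1]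
    intro x hx
    change f ∉ x.asIdeal
    intro hf
    obtain ⟨i, -, hi⟩ := (x.isPrime.prod_mem_iff).mp hf
    exact hU i hx hi
  let j' : (U : Scheme.{u}) ⟶ Spec (CommRingCat.of Rf) := IsOpenImmersion.lift j U.ι hrange
  have hj' : j' ≫ j = U.ι := IsOpenImmersion.lift_fac _ _ _
  have hsq := isPullback (algebraMap R Rf) (Equiv.refl ι) a n (fun i => algebraMap R Rf (a i)) n
    (fun _ => rfl) (fun _ => rfl)
  have sq3 := (isPullback_morphismRestrict (str R a n) U).flip
  have h2 : (str R a n ⁻¹ᵁ U).ι ≫ str R a n = ((str R a n ∣_ U) ≫ j') ≫ j := by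
    rw [Category.assoc, hj']; exact sq3.w
  have hpb : IsPullback (hsq.lift _ _ h2) (str R a n ∣_ U) (str Rf (fun i => algebraMap R Rf (a i)) n) j' := by
    refine IsPullback.of_right (v₁₃ := str R a n) (h₂₂ := j) ?_ (hsq.lift_snd _ _ _) hsq
    rw [hsq.lift_fst, hj']
    exact sq3
  have het : Algebra.Etale Rf (SGA1t.kummer Rf (fun i => algebraMap R Rf (a i)) n) := by
    refine KumBasic.etale _ n hn (fun i => ?_) (fun i => ?_)
    · simpa using (hu i).map (algebraMap R Rf)
    · have h3 : IsUnit (algebraMap R Rf f) := IsLocalization.Away.algebraMap_isUnit f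
      exact isUnit_of_dvd_unit (map_dvd _ (Finset.dvd_prod_of_mem a (Finset.mem_univ i))) h3
  have het' : Etale (str Rf (fun i => algebraMap R Rf (a i)) n) := by
    rw [str, HasRingHomProperty.Spec_iff (P := @Etale), CommRingCat.hom_ofHom]
    rw [RingHom.etale_algebraMap]
    exact het
  exact MorphismProperty.of_isPullback hpb het'

end Props

section Multiple

variable {R : Type u} [CommRing R] {ι : Type} (a : ι → R) (n N : ι → ℕ) (h : ∀ i, n i ∣ N i)

include h in
/-- `K_N → K_n` for `n ∣ N`. -/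
theorem exists_factor_restrict (U : (Spec (CommRingCat.of R)).Opens) :
    ∃ l : (↑(str R a N ⁻¹ᵁ U) : Scheme.{u}) ⟶ ↑(str R a n ⁻¹ᵁ U), l ≫ (str R a n ∣_ U) = str R a N ∣_ U := by
  choose m hm using h
  let φ : SGA1t.kummer R a n →ₐ[R] SGA1t.kummer R a N := KumBasic.lift a n
    (fun i => KumBasic.T a N i ^ m i) (fun i => by
      rw [← pow_mul, mul_comm, ← hm, KumBasic.T_pow])
  let q : Spec (CommRingCat.of (SGA1t.kummer R a N)) ⟶ Spec (CommRingCat.of (SGA1t.kummer R a n)) :=
    Spec.map (CommRingCat.ofHom φ.toRingHom)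
  have hq : q ≫ str R a n = str R a N := by
    rw [← Spec.map_comp, ← CommRingCat.ofHom_comp]
    congr 2
    exact φ.comp_algebraMap
  have sq3 := (isPullback_morphismRestrict (str R a n) U).flip
  refine ⟨sq3.lift ((str R a N ⁻¹ᵁ U).ι ≫ q) (str R a N ∣_ U) ?_, sq3.lift_snd _ _ _⟩
  rw [Category.assoc, hq, morphismRestrict_ι]

end Multiple

end Groth.Agent.Pi1.H415.KumBC
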