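import Groth.Agent.Pi1.H390.KumBasic
import Mathlib.RingTheory.AdjoinRoot
import Mathlib.RingTheory.Flat.Basic
import Mathlib.RingTheory.Flat.Stability
import Mathlib.RingTheory.TensorProduct.Basic
import Mathlib.LinearAlgebra.TensorProduct.Tower
import Mathlib.Data.Fintype.Option

/-!
# The Kummer algebra is flat over the base
-/

set_option autoImplicit false
universe u

open TensorProduct

namespace Groth.Agent.Pi1.H415.KumFlat

open Groth.Agent.Pi1.H390

section Option

variable {A : Type u} [CommRing A] {ι : Type} (a : Option ι → A) (n : Option ι → ℕ)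

/-- The factor `A[T]/(T^n - a)`. -/
abbrev B : Type u := AdjoinRoot (Polynomial.X ^ n none - Polynomial.C (a none) : Polynomial A)

/-- The remaining factor. -/
abbrev K' : Type u := SGA1t.kummer A (fun i => a (some i)) (fun i => n (some i))

theorem root_pow : (AdjoinRoot.root (Polynomial.X ^ n none - Polynomial.C (a none) : Polynomial A)) ^ n none =
    algebraMap A (B a n) (a none) := by
  have h := AdjoinRoot.eval₂_root (Polynomial.X ^ n none - Polynomial.C (a none) : Polynomial A)
  simp only [Polynomial.eval₂_sub, Polynomial.eval₂_X_pow, Polynomial.eval₂_C, sub_eq_zero] at h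
  exact h

/-- The tensor product. -/
abbrev BK : Type u := (B a n) ⊗[A] (K' a n)

noncomputable instance : CommRing (BK a n) := Algebra.TensorProduct.instCommRing

noncomputable instance : Algebra A (BK a n) := Algebra.TensorProduct.leftAlgebra

/-- The images of the `T_i`. -/
noncomputable def tt : Option ι → BK a n
  | none => AdjoinRoot.root _ ⊗ₜ 1
  | some i => 1 ⊗ₜ KumBasic.T (fun i => a (some i)) (fun i => n (some i)) i

theorem tt_pow (i : Option ι) : tt a n i ^ n i = algebraMap A (BK a n) (a i) := by
  cases i with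
  | none =>
    change ((AdjoinRoot.root _ : B a n) ⊗ₜ[A] (1 : K' a n)) ^ n none = _
    rw [Algebra.TensorProduct.tmul_pow, one_pow, root_pow, Algebra.TensorProduct.algebraMap_apply]
  | some i =>
    change ((1 : B a n) ⊗ₜ[A] KumBasic.T (fun i => a (some i)) (fun i => n (some i)) i) ^ n (some i) = _
    rw [Algebra.TensorProduct.tmul_pow, one_pow,
      KumBasic.T_pow (fun i => a (some i)) (fun i => n (some i)) i, Algebra.TensorProduct.algebraMap_apply']

/-- Forward map. -/
noncomputable def toHom : SGA1t.kummer A a n →ₐ[A] (B a n) ⊗[A] (K' a n) :=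
  KumBasic.lift (S := (B a n) ⊗[A] (K' a n)) a n (tt a n) (tt_pow a n)

theorem inv1_aux : (Polynomial.X ^ n none - Polynomial.C (a none) : Polynomial A).eval₂
    (Algebra.ofId A (SGA1t.kummer A a n)).toRingHom (KumBasic.T a n none) = 0 := by
  simp only [Polynomial.eval₂_sub, Polynomial.eval₂_X_pow, Polynomial.eval₂_C, sub_eq_zero]
  exact KumBasic.T_pow a n none

/-- Backward map on the first factor. -/
noncomputable def inv1 : B a n →ₐ[A] SGA1t.kummer A a n :=
  AdjoinRoot.liftAlgHom _ (Algebra.ofId A _) (KumBasic.T a n none) (inv1_aux a n)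

theorem inv1_root : inv1 a n (AdjoinRoot.root _) = KumBasic.T a n none :=
  AdjoinRoot.lift_root (inv1_aux a n)

/-- Backward map on the second factor. -/
noncomputable def inv2 : K' a n →ₐ[A] SGA1t.kummer A a n :=
  KumBasic.lift (S := SGA1t.kummer A a n) _ _ (fun i => KumBasic.T a n (some i))
    (fun i => KumBasic.T_pow a n (some i))

theorem inv2_T (i : ι) : inv2 a n (KumBasic.T _ _ i) = KumBasic.T a n (some i) :=
  KumBasic.lift_T (S := SGA1t.kummer A a n) _ _ _ _ i

/-- Backward map. -/
noncomputable def invHom : BK a n →ₐ[A] SGA1t.kummer A a n :=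
  Algebra.TensorProduct.lift (inv1 a n) (inv2 a n) (fun _ _ => Commute.all _ _)

theorem invHom_tmul (x : B a n) (y : K' a n) : invHom a n (x ⊗ₜ y) = inv1 a n x * inv2 a n y :=
  Algebra.TensorProduct.lift_tmul _ _ _ _ _

theorem toHom_T (i : Option ι) : toHom a n (KumBasic.T a n i) = tt a n i :=
  KumBasic.lift_T (S := BK a n) a n _ _ i

theorem inv_to : (invHom a n).comp (toHom a n) = AlgHom.id A _ := by
  refine KumBasic.hom_ext fun i => ?_
  rw [AlgHom.comp_apply, toHom_T, AlgHom.id_apply]
  cases i with
  | none =>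
    change invHom a n ((AdjoinRoot.root _ : B a n) ⊗ₜ[A] (1 : K' a n)) = _
    rw [invHom_tmul, map_one, mul_one, inv1_root]
  | some i =>
    change invHom a n ((1 : B a n) ⊗ₜ[A] KumBasic.T (fun i => a (some i)) (fun i => n (some i)) i) = _
    rw [invHom_tmul, map_one, one_mul, inv2_T]

theorem to_inv : (toHom a n).comp (invHom a n) = AlgHom.id A _ := by
  apply Algebra.TensorProduct.ext
  · apply AdjoinRoot.algHom_ext
    change toHom a n (invHom a n ((AdjoinRoot.root _ : B a n) ⊗ₜ[A] (1 : K' a n))) = _
    rw [invHom_tmul, map_one, mul_one, inv1_root, toHom_T]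
    rfl
  · refine KumBasic.hom_ext (S := BK a n) fun i => ?_
    change toHom a n (invHom a n ((1 : B a n) ⊗ₜ[A] KumBasic.T (fun i => a (some i)) (fun i => n (some i)) i)) = _
    rw [invHom_tmul, map_one, one_mul, inv2_T, toHom_T]
    rfl

/-- Splitting off one root. -/
noncomputable def equiv : SGA1t.kummer A a n ≃ₐ[A] BK a n :=
  AlgEquiv.ofAlgHom (toHom a n) (invHom a n) (to_inv a n) (inv_to a n)

end Option

/-- Reindexing. -/
noncomputable def reindex {A : Type u} [CommRing A] {ι κ : Type} (e : ι ≃ κ) (a : κ → A) (n : κ → ℕ) :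
    SGA1t.kummer A (a ∘ e) (n ∘ e) ≃ₐ[A] SGA1t.kummer A a n :=
  AlgEquiv.ofAlgHom
    (KumBasic.lift (S := SGA1t.kummer A a n) _ _ (fun i => KumBasic.T a n (e i)) (fun i => KumBasic.T_pow a n (e i)))
    (KumBasic.lift (S := SGA1t.kummer A (a ∘ e) (n ∘ e)) _ _ (fun k => KumBasic.T (a ∘ e) (n ∘ e) (e.symm k))
      (fun k => by
        obtain ⟨i, rfl⟩ := e.surjective k
        rw [Equiv.symm_apply_apply]
        exact KumBasic.T_pow (a ∘ e) (n ∘ e) i))
    (KumBasic.hom_ext fun k => by
      rw [AlgHom.comp_apply, KumBasic.lift_T, KumBasic.lift_T, Equiv.apply_symm_apply, AlgHom.id_apply])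
    (KumBasic.hom_ext fun i => by
      rw [AlgHom.comp_apply, KumBasic.lift_T, KumBasic.lift_T, Equiv.symm_apply_apply, AlgHom.id_apply])

theorem flat (ι : Type) [Finite ι] : ∀ (A : Type u) [CommRing A] (a : ι → A) (n : ι → ℕ) (_ : ∀ i, 1 ≤ n i),
    Module.Flat A (SGA1t.kummer A a n) := by
  induction ι using Finite.induction_empty_option with
  | @of_equiv α β e ih =>
    intro A _ a n hn
    have := ih A (a ∘ e) (n ∘ e) (fun i => hn _)
    exact Module.Flat.of_linearEquiv (reindex e a n).symm.toLinearEquiv
  | h_empty =>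
    intro A _ a n hn
    have hbij : Function.Bijective (algebraMap A (SGA1t.kummer A a n)) := by
      let ψ : SGA1t.kummer A a n →ₐ[A] A := KumBasic.lift a n (fun i => i.elim) (fun i => i.elim)
      constructor
      · exact Function.LeftInverse.injective (g := ψ) (fun c => ψ.commutes c)
      · intro x
        refine ⟨ψ x, ?_⟩
        have h1 : (Algebra.ofId A (SGA1t.kummer A a n)).comp ψ = AlgHom.id A _ :=
          KumBasic.hom_ext fun i => i.elim
        exact DFunLike.congr_fun h1 x
    let e : A ≃ₗ[A] SGA1t.kummer A a n := LinearEquiv.ofBijective (Algebra.linearMap A _) hbij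
    exact Module.Flat.of_linearEquiv e.symm
  | @h_option α _ ih =>
    intro A _ a n hn
    have h1 := ih A (fun i => a (some i)) (fun i => n (some i)) (fun i => hn _)
    have hm : (Polynomial.X ^ n none - Polynomial.C (a none) : Polynomial A).Monic :=
      Polynomial.monic_X_pow_sub_C _ (by have := hn none; omega)
    have h2 : Module.Free A (B a n) := Module.Free.of_basis (AdjoinRoot.powerBasis' hm).basis
    have h3 : Module.Flat A (BK a n) := inferInstance
    exact Module.Flat.of_linearEquiv (equiv a n).toLinearEquiv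

end Groth.Agent.Pi1.H415.KumFlat
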