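import Groth.Agent.Pi1.H415.KumBC
import Groth.Agent.Pi1.H415.KumFlat
import Mathlib.AlgebraicGeometry.Morphisms.Flat
import Mathlib.AlgebraicGeometry.Morphisms.FinitePresentation
import Mathlib.FieldTheory.Perfect

/-!
# The tower of Kummer schemes: `K_{ms} → K_m` is finite, flat, finitely presented, surjective, and radicial
over points of characteristic `p` if the `s_i` are powers of `p`
-/

set_option autoImplicit false
universe u

open CategoryTheory CategoryTheory.Limits AlgebraicGeometry

namespace Groth.Agent.Pi1.H415.KumTower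

open Groth.Agent.Pi1.H390 Groth.Agent.Pi1.H415.KumBC

section

variable {R : Type u} [CommRing R] {ι : Type} (a : ι → R) (m s : ι → ℕ)

/-- The upper Kummer algebra, as an algebra over the lower one. -/
abbrev L : Type u := SGA1t.kummer (SGA1t.kummer R a m) (KumBasic.T a m) s

theorem up_aux (i : ι) : (KumBasic.T (KumBasic.T a m) s i : L a m s) ^ (m i * s i) =
    algebraMap R (L a m s) (a i) := by
  rw [mul_comm, pow_mul, KumBasic.T_pow, ← map_pow, KumBasic.T_pow]
  rfl

/-- `T_i ↦ T_i`. -/
noncomputable def up : SGA1t.kummer R a (fun i => m i * s i) →ₐ[R] L a m s :=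
  KumBasic.lift a _ (fun i => KumBasic.T (KumBasic.T a m) s i) (up_aux a m s)

theorem up_T (i : ι) : up a m s (KumBasic.T a _ i) = KumBasic.T (KumBasic.T a m) s i :=
  KumBasic.lift_T a _ _ _ i

/-- `T_i ↦ T_i ^ s_i`. -/
noncomputable def tr : SGA1t.kummer R a m →ₐ[R] SGA1t.kummer R a (fun i => m i * s i) :=
  KumBasic.lift a m (fun i => KumBasic.T a _ i ^ s i) (fun i => by
    rw [← pow_mul, mul_comm]
    exact KumBasic.T_pow a (fun i => m i * s i) i)

theorem tr_T (i : ι) : tr a m s (KumBasic.T a m i) = KumBasic.T a _ i ^ s i :=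
  KumBasic.lift_T a m _ _ i

theorem up_tr (x : SGA1t.kummer R a m) : up a m s (tr a m s x) = algebraMap _ (L a m s) x := by
  have h : (up a m s).toRingHom.comp (tr a m s).toRingHom =
      algebraMap (SGA1t.kummer R a m) (L a m s) := by
    apply KumBasic.ringHom_ext
    · ext c
      change up a m s (tr a m s (algebraMap R _ c)) = algebraMap _ (L a m s) (algebraMap R _ c)
      rw [AlgHom.commutes, AlgHom.commutes]
      rfl
    · intro i
      change up a m s (tr a m s (KumBasic.T a m i)) = algebraMap _ (L a m s) (KumBasic.T a m i)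
      rw [tr_T, map_pow, up_T, KumBasic.T_pow]
  exact DFunLike.congr_fun h x

theorem bijective_up : Function.Bijective (up a m s) := by
  let _ : Algebra (SGA1t.kummer R a m) (SGA1t.kummer R a (fun i => m i * s i)) :=
    (tr a m s).toRingHom.toAlgebra
  let dn : L a m s →ₐ[SGA1t.kummer R a m] SGA1t.kummer R a (fun i => m i * s i) :=
    KumBasic.lift (KumBasic.T a m) s (fun i => KumBasic.T a _ i) (fun i => (tr_T a m s i).symm)
  have hdnT : ∀ i, dn (KumBasic.T (KumBasic.T a m) s i) = KumBasic.T a _ i :=
    fun i => KumBasic.lift_T (KumBasic.T a m) s _ _ i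
  have hdn : ∀ x, dn (algebraMap _ _ x) = tr a m s x := fun x => dn.commutes x
  have h1 : ∀ x, dn (up a m s x) = x := by
    intro x
    have h : dn.toRingHom.comp (up a m s).toRingHom = RingHom.id _ := by
      apply KumBasic.ringHom_ext
      · ext c
        change dn (up a m s (algebraMap R _ c)) = algebraMap R _ c
        rw [AlgHom.commutes]
        refine (hdn (algebraMap R _ c)).trans ?_
        exact (tr a m s).commutes c
      · intro i
        change dn (up a m s (KumBasic.T a _ i)) = _
        rw [up_T, hdnT]
        rfl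
    exact DFunLike.congr_fun h x
  have h2 : ∀ x, up a m s (dn x) = x := by
    intro x
    have h : (up a m s).toRingHom.comp dn.toRingHom = RingHom.id _ := by
      apply KumBasic.ringHom_ext
      · refine RingHom.ext fun c => ?_
        change up a m s (dn (algebraMap _ _ c)) = algebraMap _ _ c
        rw [hdn, up_tr]
      · intro i
        change up a m s (dn (KumBasic.T _ _ i)) = _
        rw [hdnT, up_T]
        rfl
    exact DFunLike.congr_fun h x
  exact ⟨Function.LeftInverse.injective h1, Function.RightInverse.surjective h2⟩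

/-- The transition morphism. -/
noncomputable def q : Spec (CommRingCat.of (SGA1t.kummer R a (fun i => m i * s i))) ⟶
    Spec (CommRingCat.of (SGA1t.kummer R a m)) :=
  Spec.map (CommRingCat.ofHom (tr a m s).toRingHom)

theorem q_str : q a m s ≫ str R a m = str R a (fun i => m i * s i) := by
  rw [q, ← Spec.map_comp, ← CommRingCat.ofHom_comp]
  congr 2
  exact (tr a m s).comp_algebraMap

/-- The iso of the upper Kummer scheme with the iterated one. -/
noncomputable def j : Spec (CommRingCat.of (L a m s)) ⟶
    Spec (CommRingCat.of (SGA1t.kummer R a (fun i => m i * s i))) :=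
  Spec.map (CommRingCat.ofHom (up a m s).toRingHom)

instance isIso_j : IsIso (j a m s) := by
  let e : SGA1t.kummer R a (fun i => m i * s i) ≃+* L a m s :=
    RingEquiv.ofBijective (up a m s) (bijective_up a m s)
  have h : j a m s = Spec.map e.toCommRingCatIso.hom := rfl
  rw [h]
  infer_instance

theorem j_q : j a m s ≫ q a m s = str (SGA1t.kummer R a m) (KumBasic.T a m) s := by
  rw [q, j, ← Spec.map_comp, ← CommRingCat.ofHom_comp]
  congr 2
  exact RingHom.ext fun x => up_tr a m s x

theorem q_eq : q a m s = inv (j a m s) ≫ str (SGA1t.kummer R a m) (KumBasic.T a m) s := by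
  rw [← j_q, IsIso.inv_hom_id_assoc]

section

variable [Finite ι] (hs : ∀ i, 1 ≤ s i)

include hs

theorem isFinite_q : IsFinite (q a m s) := by
  have := isFinite_str (KumBasic.T a m) s hs
  rw [q_eq]
  infer_instance

omit [Finite ι] in
theorem surjective_q : Surjective (q a m s) := by
  have := surjective_str (KumBasic.T a m) s hs
  rw [q_eq]
  infer_instance

theorem flat_q : Flat (q a m s) := by
  have h : Flat (str (SGA1t.kummer R a m) (KumBasic.T a m) s) := by
    rw [str, HasRingHomProperty.Spec_iff (P := @Flat), CommRingCat.hom_ofHom, RingHom.flat_algebraMap_iff]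
    exact KumFlat.flat ι _ _ s hs
  rw [q_eq]
  infer_instance

end

theorem lfp_q [Finite ι] : LocallyOfFinitePresentation (q a m s) := by
  have h : LocallyOfFinitePresentation (str (SGA1t.kummer R a m) (KumBasic.T a m) s) := by
    rw [str, HasRingHomProperty.Spec_iff (P := @LocallyOfFinitePresentation), CommRingCat.hom_ofHom,
      RingHom.finitePresentation_algebraMap]
    infer_instance
  rw [q_eq]
  infer_instance

theorem radicial_q (Ω : Type u) [Field Ω] (p : ℕ) [ExpChar Ω p] (hp : ∀ i, ∃ k, s i = p ^ k)
    (b c : Spec (CommRingCat.of Ω) ⟶ Spec (CommRingCat.of (SGA1t.kummer R a (fun i => m i * s i))))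
    (h : b ≫ q a m s = c ≫ q a m s) : b = c := by
  obtain ⟨β, rfl⟩ := Spec.map_surjective b
  obtain ⟨γ, rfl⟩ := Spec.map_surjective c
  rw [q, ← Spec.map_comp, ← Spec.map_comp] at h
  have h1 := Spec.map_injective h
  have h2 : ∀ x, β.hom (tr a m s x) = γ.hom (tr a m s x) := fun x => congrArg (fun k => k.hom x) h1
  congr 1
  apply CommRingCat.hom_ext
  apply KumBasic.ringHom_ext
  · ext r
    have := h2 (algebraMap R _ r)
    rw [AlgHom.commutes] at this
    exact this
  · intro i
    obtain ⟨k, hk⟩ := hp i
    have := h2 (KumBasic.T a m i)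
    rw [tr_T, map_pow, map_pow, hk] at this
    exact iterateFrobenius_inj Ω p k this

end

end Groth.Agent.Pi1.H415.KumTower
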