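import Groth.Prelude.Def_SGA1t
import Groth.Prelude.Def_Hens2

/-!
# The divisor on the strict localization: elementary facts
-/

set_option autoImplicit false
universe u

open CategoryTheory CategoryTheory.Limits AlgebraicGeometry

namespace Groth.Agent.Pi1.H415.Local

variable {X : Scheme.{u}} (x : X) (R : Type u) [CommRing R] [Algebra (X.presheaf.stalk x) R]

/-- The image in `R` of a global function. -/
noncomputable def fn (s : Γ(X, ⊤)) : R := algebraMap (X.presheaf.stalk x) R ((X.presheaf.germ ⊤ x trivial).hom s)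

theorem specOf_appTop (s : Γ(X, ⊤)) :
    (Hens2.specOf X x R).appTop s = (Scheme.ΓSpecIso (CommRingCat.of R)).inv (fn x R s) := by
  have h1 : (X.fromSpecStalk x).appTop = X.presheaf.germ ⊤ x trivial ≫
      (Scheme.ΓSpecIso (X.presheaf.stalk x)).inv := by
    rw [Scheme.fromSpecStalk_appTop]
    have : (homOfLE (le_top : (⊤ : (Spec (X.presheaf.stalk x)).Opens) ≤ ⊤)).op = 𝟙 _ := rfl
    erw [this, (Spec (X.presheaf.stalk x)).presheaf.map_id]
    simp
  have h2 : (Hens2.specOf X x R).appTop = X.presheaf.germ ⊤ x trivial ≫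
      CommRingCat.ofHom (algebraMap (X.presheaf.stalk x) R) ≫ (Scheme.ΓSpecIso (CommRingCat.of R)).inv := by
    rw [Hens2.specOf, Scheme.Hom.comp_appTop, h1, Category.assoc]
    congr 1
    exact (Scheme.ΓSpecIso_inv_naturality (CommRingCat.ofHom (algebraMap (X.presheaf.stalk x) R))).symm
  rw [h2]
  rfl

theorem basicOpen_specOf (s : Γ(X, ⊤)) :
    (Spec (CommRingCat.of R)).basicOpen ((Hens2.specOf X x R).appTop s) = PrimeSpectrum.basicOpen (fn x R s) := by
  rw [specOf_appTop]
  exact basicOpen_eq_of_affine (R := CommRingCat.of R) (fn x R s)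

variable {r : ℕ} (φ : Fin r → Γ(X, ⊤))

theorem compl_le_basicOpen {Y : Scheme.{u}} (ψ : Fin r → Γ(Y, ⊤)) (i : Fin r) :
    SGA1t.compl ψ ≤ Y.basicOpen (ψ i) := by
  classical
  rw [SGA1t.compl, ← Finset.mul_prod_erase Finset.univ ψ (Finset.mem_univ i)]
  rw [Scheme.basicOpen_mul]
  exact inf_le_left

theorem mem_compl_iff {Y : Scheme.{u}} (ψ : Fin r → Γ(Y, ⊤)) (y : Y) :
    y ∈ SGA1t.compl ψ ↔ ∀ i, y ∈ Y.basicOpen (ψ i) := by
  constructor
  · intro h i
    exact compl_le_basicOpen ψ i h
  · intro h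
    change y ∈ Y.basicOpen (∏ i, ψ i)
    rw [Scheme.mem_basicOpen_top, map_prod, IsUnit.prod_univ_iff]
    intro i
    exact (Scheme.mem_basicOpen_top Y (ψ i) y).mp (h i)

theorem compl_specOf_le (i : Fin r) :
    SGA1t.compl (fun i => (Hens2.specOf X x R).appTop (φ i)) ≤ PrimeSpectrum.basicOpen (fn x R (φ i)) := by
  rw [← basicOpen_specOf]
  exact compl_le_basicOpen (fun i => (Hens2.specOf X x R).appTop (φ i)) i

variable [IsLocalRing R] [IsLocalHom (algebraMap (X.presheaf.stalk x) R)]

theorem fn_mem_maximalIdeal_iff (s : Γ(X, ⊤)) :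
    fn x R s ∈ IsLocalRing.maximalIdeal R ↔ x ∉ X.basicOpen s := by
  rw [Scheme.mem_basicOpen_top, IsLocalRing.mem_maximalIdeal, mem_nonunits_iff, fn]
  exact not_congr (isUnit_map_iff (algebraMap (X.presheaf.stalk x) R) _)

omit [IsLocalRing R] [IsLocalHom (algebraMap (X.presheaf.stalk x) R)] in
theorem isUnit_natCast (m : ℕ) (h : IsUnit ((m : ℕ) : X.residueField x)) : IsUnit ((m : ℕ) : R) := by
  have h1 : IsUnit ((m : ℕ) : X.presheaf.stalk x) := by
    by_contra h2
    have h3 : (X.residue x).hom ((m : ℕ) : X.presheaf.stalk x) = 0 :=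
      (IsLocalRing.residue_eq_zero_iff _).mpr ((IsLocalRing.mem_maximalIdeal _).mpr h2)
    rw [map_natCast] at h3
    rw [h3] at h
    exact not_isUnit_zero h
  simpa using h1.map (algebraMap (X.presheaf.stalk x) R)

omit [IsLocalRing R] in
theorem isUnit_natCast_residueField (m : ℕ) (h : IsUnit ((m : ℕ) : R)) : IsUnit ((m : ℕ) : X.residueField x) := by
  have h1 : IsUnit ((m : ℕ) : X.presheaf.stalk x) := by
    rw [← isUnit_map_iff (algebraMap (X.presheaf.stalk x) R), map_natCast]
    exact h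
  simpa using h1.map (X.residue x).hom

/-- If no function vanishes at `x` then the complement is everything. -/
theorem compl_eq_top (h : IsEmpty (SGA1t.vanishingAt φ x)) :
    SGA1t.compl (fun i => (Hens2.specOf X x R).appTop (φ i)) = ⊤ := by
  rw [eq_top_iff]
  intro y _
  rw [mem_compl_iff]
  intro i
  rw [basicOpen_specOf]
  have h1 : IsUnit (fn x R (φ i)) := by
    by_contra h2
    have h3 := (fn_mem_maximalIdeal_iff x R (φ i)).mp ((IsLocalRing.mem_maximalIdeal _).mpr h2)
    exact h.false ⟨i, h3⟩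
  change fn x R (φ i) ∉ y.asIdeal
  intro h2
  exact y.isPrime.ne_top (Ideal.eq_top_of_isUnit_mem _ h2 h1)

instance : Finite (SGA1t.vanishingAt φ x) := by
  unfold SGA1t.vanishingAt; infer_instance

end Groth.Agent.Pi1.H415.Local
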