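import Groth.Agent.Pi1.H384.SplitCover
import Groth.Agent.Pi1.H396.SplitGlue
import Groth.Agent.Pi1.H415.SplitBC

/-!
# A cover whose points lift along a connected `k : K → U` becomes split over `K`, hence extends to every
scheme containing `K`
-/

set_option autoImplicit false
universe u

open CategoryTheory CategoryTheory.Limits AlgebraicGeometry

namespace Groth.Agent.Pi1.H415.SplitExt

open Groth.Agent.Pi1.H415.SplitBC Groth.Agent.Pi1.H384.SplitCover

theorem isSplit_of_ptSplit {K U : Scheme.{u}} [ConnectedSpace K] (V : FEt.Cat U) (k : K ⟶ U)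
    (h : PtSplit V.hom k) : Pi1.IsSplit ((FEt.restrict k).obj V) := by
  obtain ⟨y⟩ : Nonempty K := inferInstance
  obtain ⟨Ω, _, _, ξ, -⟩ := Groth.Agent.Pi1A.ConnFibres.exists_geometric_point K y
  let T : FEt.Cat K := (FEt.restrict k).obj V
  let F : Type u := FEt.fiberObj ξ T
  have hfin : Finite F := Groth.Agent.S0294.result ξ T
  have hsec : ∀ t : F, ∃ s : K ⟶ T.left, s ≫ T.hom = 𝟙 K ∧ ξ ≫ s = t.1 := by
    intro t
    have ht : t.1 ≫ T.hom = ξ := t.2
    have hcond : pullback.fst V.hom k ≫ V.hom = T.hom ≫ k := pullback.condition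
    obtain ⟨s, hs1, hs2⟩ := h Ω (t.1 ≫ pullback.fst V.hom k) ξ
      ((Category.assoc _ _ _).trans ((congrArg (t.1 ≫ ·) hcond).trans
        ((Category.assoc _ _ _).symm.trans (congrArg (· ≫ k) ht))))
    have hs : s ≫ V.hom = 𝟙 K ≫ k := by rw [hs1, Category.id_comp]
    have h2 : pullback.lift s (𝟙 K) hs ≫ T.hom = 𝟙 K := pullback.lift_snd _ _ _
    refine ⟨pullback.lift s (𝟙 K) hs, h2, ?_⟩
    apply pullback.hom_ext
    · exact (Category.assoc _ _ _).trans ((congrArg (ξ ≫ ·) (pullback.lift_fst _ _ _)).trans hs2)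
    · exact (Category.assoc _ _ _).trans ((congrArg (ξ ≫ ·) h2).trans ((Category.comp_id _).trans ht.symm))
  choose sec hsec1 hsec2 using hsec
  let φ : trivialObj K F ⟶ T :=
    MorphismProperty.Over.homMk (Sigma.desc sec) (by
      apply Sigma.hom_ext
      intro f
      change Sigma.ι _ f ≫ Sigma.desc sec ≫ T.hom = Sigma.ι _ f ≫ Sigma.desc (fun _ => 𝟙 _)
      rw [Sigma.ι_desc_assoc, Sigma.ι_desc, hsec1])
  have hφ : φ.left = Sigma.desc sec := rfl
  have hpt (f : F) : (ξ ≫ Sigma.ι (fun _ : F => K) f) ≫ Sigma.desc sec = f.1 := by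
    rw [Category.assoc, Sigma.ι_desc, hsec2]
  have hpt' (f : F) : (ξ ≫ Sigma.ι (fun _ : F => K) f) ≫ Sigma.desc (fun _ : F => 𝟙 K) = ξ := by
    rw [Category.assoc, Sigma.ι_desc, Category.comp_id]
  have hiso : IsIso φ.left := by
    apply Groth.Agent.Pi1B.FEtGalois.isIso_of_bijective_fibre ξ φ
    constructor
    · rintro ⟨s, hs⟩ ⟨s', hs'⟩ hss
      obtain ⟨f, hf⟩ := exists_sheet ξ s hs
      obtain ⟨f', hf'⟩ := exists_sheet ξ s' hs'
      have h1 : s ≫ φ.left = s' ≫ φ.left := congrArg Subtype.val hss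
      have h2 : f.1 = f'.1 :=
        (hpt f).symm.trans (((congrArg (· ≫ Sigma.desc sec) hf).symm.trans h1).trans
          ((congrArg (· ≫ Sigma.desc sec) hf').trans (hpt f')))
      have h4 : f = f' := Subtype.ext h2
      apply Subtype.ext
      change s = s'
      rw [hf, hf', h4]
    · rintro t
      exact ⟨⟨ξ ≫ Sigma.ι (fun _ : F => K) t, hpt' t⟩, Subtype.ext (hpt t)⟩
  refine ⟨F, hfin, (asIso φ.left).symm, fun f => ?_⟩
  change Sigma.ι _ f ≫ φ.left ≫ T.hom = 𝟙 _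
  rw [hφ, Sigma.ι_desc_assoc]
  exact hsec1 f

theorem exists_extends {K U : Scheme.{u}} [ConnectedSpace K] (V : FEt.Cat U) (k : K ⟶ U)
    {A : Type u} [CommRing A] (q : K ⟶ Spec (CommRingCat.of A)) (h : PtSplit V.hom k) :
    ∃ W : FEt.Cat (Spec (CommRingCat.of A)), Nonempty ((FEt.restrict q).obj W ≅ (FEt.restrict k).obj V) := by
  obtain ⟨ι, hι, ⟨e⟩⟩ := Groth.Agent.Pi1.H396.SplitGlue.nonempty_iso_triv q _ (isSplit_of_ptSplit V k h)
  exact ⟨_, ⟨e.symm⟩⟩

end Groth.Agent.Pi1.H415.SplitExt
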