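import Groth.Prelude.Def_FEt
import Groth.Prelude.Def_SGA1t
import Groth.Prelude.Def_Hens2
import Groth.Prelude.Def_PiSp

/-!
# The relative Abhyankar lemma and the structure of Kummer covers as hypotheses

`Abh` is the (closed) statement of S3689, `KumGal` that of S3692; used to state conditional results.
-/

set_option autoImplicit false
open CategoryTheory CategoryTheory.Limits AlgebraicGeometry
universe u

namespace Groth.Agent.Pi1.H415.Stmts

/-- The statement of S3689 (relative Abhyankar lemma). -/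
def Abh : Prop := ∀ {X S : Scheme.{u}} (f : X ⟶ S) {r : ℕ} (φ : Fin r → Γ(X, ⊤))
    (_ : SGA1t.IsRelSNC f φ) (x : X) (_ : Nonempty (SGA1t.vanishingAt φ x))
    (R : Type u) [CommRing R] [IsLocalRing R] [Algebra (X.presheaf.stalk x) R]
    [IsLocalHom (algebraMap (X.presheaf.stalk x) R)] [Hensel.IsStrictHenselization (X.presheaf.stalk x) R]
    (V₁ : FEt.Cat (SGA1t.compl (fun i => (Hens2.specOf X x R).appTop (φ i)) : Scheme.{u}))
    (_ : SGA1t.IsRelTameOver (Hens2.specOf X x R ≫ f) (fun i => (Hens2.specOf X x R).appTop (φ i)) V₁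
      {s : S | ∀ s' : S, s' ⤳ s → s' = s}),
    ∃ n : SGA1t.vanishingAt φ x → ℕ, (∀ i, 1 ≤ n i) ∧ (∀ i, IsUnit ((n i : ℕ) : X.residueField x)) ∧
      letI a : SGA1t.vanishingAt φ x → R := fun i =>
        algebraMap (X.presheaf.stalk x) R ((X.presheaf.germ ⊤ x trivial).hom (φ i.1))
      letI π : Spec (CommRingCat.of (SGA1t.kummer R a n)) ⟶ Spec (CommRingCat.of R) :=
        Spec.map (CommRingCat.ofHom (algebraMap R (SGA1t.kummer R a n)))
      letI U₁ := SGA1t.compl (fun i => (Hens2.specOf X x R).appTop (φ i))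
      ∃ W : FEt.Cat (Spec (CommRingCat.of (SGA1t.kummer R a n))),
        Nonempty ((FEt.restrict (π ⁻¹ᵁ U₁).ι).obj W ≅ (FEt.restrict (π ∣_ U₁)).obj V₁)

/-- The statement of S3692 (Kummer covers are Galois). -/
def KumGal : Prop := ∀ {X S : Scheme.{u}} (f : X ⟶ S) {r : ℕ} (φ : Fin r → Γ(X, ⊤))
    (_ : SGA1t.IsRelSNC f φ) (x : X) (_ : Nonempty (SGA1t.vanishingAt φ x))
    (R : Type u) [CommRing R] [IsLocalRing R] [Algebra (X.presheaf.stalk x) R]
    [IsLocalHom (algebraMap (X.presheaf.stalk x) R)] [Hensel.IsStrictHenselization (X.presheaf.stalk x) R]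
    (n : SGA1t.vanishingAt φ x → ℕ) (_ : ∀ i, 1 ≤ n i) (_ : ∀ i, IsUnit ((n i : ℕ) : X.residueField x)),
    letI a : SGA1t.vanishingAt φ x → R := fun i =>
      algebraMap (X.presheaf.stalk x) R ((X.presheaf.germ ⊤ x trivial).hom (φ i.1))
    letI π : Spec (CommRingCat.of (SGA1t.kummer R a n)) ⟶ Spec (CommRingCat.of R) :=
      Spec.map (CommRingCat.ofHom (algebraMap R (SGA1t.kummer R a n)))
    letI U₁ := SGA1t.compl (fun i => (Hens2.specOf X x R).appTop (φ i))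
    ∀ [hF : IsFinite (π ∣_ U₁)] [hE : Etale (π ∣_ U₁)],
      PiSp.IsGaloisCover (MorphismProperty.Over.mk ⊤ (π ∣_ U₁) ⟨hF, hE⟩) ∧
      ∃ θ : ((i : SGA1t.vanishingAt φ x) → ↥(rootsOfUnity (n i) R)) ≃*
          Aut (MorphismProperty.Over.mk ⊤ (π ∣_ U₁) ⟨hF, hE⟩ : FEt.Cat (U₁ : Scheme.{u})),
        ∀ ζ, (θ ζ).hom.left ≫ (π ⁻¹ᵁ U₁).ι =
          (π ⁻¹ᵁ U₁).ι ≫ Spec.map (CommRingCat.ofHom (SGA1t.kummerTwist R a n ζ))

end Groth.Agent.Pi1.H415.Stmts
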